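/-
The group `3² : GL₂(3)` inside an arbitrary group: coordinates and generators with relations.
-/
import Cfsg.Agent.Loc.ElemAb

set_option autoImplicit false
open Cfsg CL.Loc Subgroup Matrix

namespace CL.Agl

variable {G : Type*} [Group G]

/-- `A` is `3² : GL₂(3)` with `P = O₃(A)`. -/
structure Side (A P : Subgroup G) : Prop where
  le : P ≤ A
  norm : A ≤ normalizer (P : Set G)
  ea : IsElementaryAbelian 3 P
  card : Nat.card P = 9
  cent : ∀ g ∈ A, (∀ p ∈ P, g * p * g⁻¹ = p) → g ∈ P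
  cardA : Nat.card A = 432

/-- two by two matrices over the field with three elements -/
abbrev M2 := Matrix (Fin 2) (Fin 2) (ZMod 3)

/-- Coordinates for the action of `A` on `P` in the basis `z, b`. -/
structure Co (A P : Subgroup G) (z b : G) (ρ : A →* M2) (E : (Fin 2 → ZMod 3) → G) : Prop where
  act : ∀ (g : A) v, g * E v * (g : G)⁻¹ = E (ρ g *ᵥ v)
  inj : Function.Injective E
  surj : ∀ x ∈ P, ∃ v, E v = x
  add : ∀ v w, E (v + w) = E v * E w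
  e0 : E ![1, 0] = z
  e1 : E ![0, 1] = b
  onto : ∀ M : M2, M.det ≠ 0 → ∃ g, ρ g = M
  ker : ∀ g, ρ g = 1 → (g : G) ∈ P

variable {A P : Subgroup G} {z b : G} {ρ : A →* M2} {E : (Fin 2 → ZMod 3) → G}

theorem Side.exists_co (h : Side A P) (hz : z ∈ P) (hb : b ∈ P) (z1 : z ≠ 1) (bz : b ∉ zpowers z) :
    ∃ ρ E, Co A P z b ρ E := by
  have : Fact (Nat.Prime 3) := ⟨Nat.prime_three⟩
  have : Finite P := Nat.finite_of_card_ne_zero (by rw [h.card]; norm_num)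
  have : Finite A := Nat.finite_of_card_ne_zero (by rw [h.cardA]; norm_num)
  have hf : Module.finrank (ZMod 3) (EAMod h.ea) = 2 :=
    Nat.pow_right_injective (by norm_num : 2 ≤ 3) ((EAMod.card_eq_pow_finrank h.ea).symm.trans h.card)
  have li : LinearIndependent (ZMod 3) ![EAMod.mk h.ea z hz, EAMod.mk h.ea b hb] :=
    (LinearIndependent.pair_iff' fun e : EAMod.mk h.ea z hz = 0 => z1 (congrArg EAMod.val e)).2 fun c e =>
      bz ⟨(c.val : ℤ), (zpow_natCast _ _).trans ((EAMod.val_smul h.ea c (EAMod.mk h.ea z hz)).symm.trans (congrArg EAMod.val e))⟩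
  let B := basisOfLinearIndependentOfCardEqFinrank li (by rw [hf]; rfl)
  have hB : ∀ i, B i = ![EAMod.mk h.ea z hz, EAMod.mk h.ea b hb] i := fun i =>
    congrFun (coe_basisOfLinearIndependentOfCardEqFinrank li _) i
  let ρ : A →* M2 := (LinearMap.toMatrixAlgEquiv B).toMulEquiv.toMonoidHom.comp
    (LinearEquiv.automorphismGroup.toLinearMapMonoidHom.comp (conjRepOf h.ea h.norm))
  have act : ∀ (g : A) v, g * (B.equivFun.symm v).val * (g : G)⁻¹ = (B.equivFun.symm (ρ g *ᵥ v)).val := fun g v => by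
    obtain ⟨x, rfl⟩ := B.equivFun.surjective v
    rw [B.equivFun.symm_apply_apply, ← val_conjRepOf h.ea h.norm]
    exact congrArg EAMod.val (B.equivFun.eq_symm_apply.2
      (LinearMap.toMatrix_mulVec_repr B B (conjRepOf h.ea h.norm g).toLinearMap x).symm)
  have surj : ∀ x ∈ P, ∃ v, (B.equivFun.symm v).val = x := fun x hx =>
    ⟨B.equivFun (EAMod.mk h.ea x hx), by rw [B.equivFun.symm_apply_apply]; rfl⟩
  have ker : ∀ g, ρ g = 1 → (g : G) ∈ P := fun g e => h.cent g g.2 fun p hp => by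
    obtain ⟨v, rfl⟩ := surj p hp
    rw [act, e, one_mulVec]
  refine ⟨ρ, fun v => (B.equivFun.symm v).val, act, (EAMod.val_injective h.ea).comp B.equivFun.symm.injective, surj,
    fun v w => by rw [map_add, EAMod.val_add], by simp [hB, EAMod.val_mk], by simp [hB, EAMod.val_mk], fun M hM => ?_, ker⟩
  have hk : ρ.toHomUnits.ker = P.subgroupOf A := by
    ext g
    refine ⟨fun e => ker g (congrArg Units.val e), fun e => Units.ext (ext_of_mulVec_single fun i => ?_)⟩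
    refine B.equivFun.symm.injective (EAMod.val_injective h.ea ((act g _).symm.trans ?_))
    rw [Units.val_one, one_mulVec, ea_mul_comm h.ea (mem_subgroupOf.1 e) (EAMod.val_mem _ _), mul_inv_cancel_right]
  have hc := ρ.toHomUnits.ker.card_mul_index
  rw [index_ker, hk, Nat.card_congr (subgroupOfEquivOfLe h.le).toEquiv, h.card, h.cardA] at hc
  have ht : ρ.toHomUnits.range = ⊤ := eq_top_of_card_eq _ (by
    rw [show Nat.card (M2ˣ) = 48 from (card_GL_field (𝔽 := ZMod 3) 2).trans (by simp [Fin.prod_univ_two])]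
    omega)
  obtain ⟨g, hg⟩ : GeneralLinearGroup.mkOfDetNeZero M hM ∈ ρ.toHomUnits.range := ht ▸ mem_top _
  exact ⟨g, congrArg Units.val hg⟩

namespace Co

theorem zero (c : Co A P z b ρ E) : E 0 = 1 := by
  have := c.add 0 0
  rwa [add_zero, left_eq_mul] at this

theorem neg (c : Co A P z b ρ E) (v : Fin 2 → ZMod 3) : E (-v) = (E v)⁻¹ :=
  eq_inv_of_mul_eq_one_left (by rw [← c.add, neg_add_cancel, c.zero])

theorem eq (c : Co A P z b ρ E) {g : A} {M : M2} (v w : Fin 2 → ZMod 3) (h0 : g * z * (g : G)⁻¹ = E v)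
    (h1 : g * b * (g : G)⁻¹ = E w) (hM : v = M *ᵥ ![1, 0] ∧ w = M *ᵥ ![0, 1] := by decide) : ρ g = M := by
  obtain ⟨rfl, rfl⟩ := hM
  have k : ∀ M N : M2, M *ᵥ ![1, 0] = N *ᵥ ![1, 0] → M *ᵥ ![0, 1] = N *ᵥ ![0, 1] → M = N := fun M N e0 e1 => by
    ext i j
    fin_cases j
    · simpa [mulVec, dotProduct] using congrFun e0 i
    · simpa [mulVec, dotProduct] using congrFun e1 i
  exact k _ _ (c.inj ((c.act g _).symm.trans (c.e0.symm ▸ h0))) (c.inj ((c.act g _).symm.trans (c.e1.symm ▸ h1)))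

theorem le (c : Co A P z b ρ E) {K : Subgroup G} (hz : z ∈ K) (hb : b ∈ K) : P ≤ K := fun x hx => by
  obtain ⟨v, rfl⟩ := c.surj x hx
  have k : ∀ v : Fin 2 → ZMod 3, ∃ i j : Fin 3, v = i.1 • ![1, 0] + j.1 • ![0, 1] := by decide
  have k2 : ∀ (n : ℕ) w, E (n • w) = E w ^ n := fun n w => by
    induction n with
    | zero => rw [zero_smul, pow_zero, c.zero]
    | succ n ih => rw [succ_nsmul, c.add, ih, pow_succ]
  obtain ⟨i, j, rfl⟩ := k v
  rw [c.add, k2, k2, c.e0, c.e1]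
  exact mul_mem (pow_mem hz _) (pow_mem hb _)

end Co

theorem Side.exists_inv (h : Side A P) (hz : z ∈ P) (hb : b ∈ P) (z1 : z ≠ 1) (bz : b ∉ zpowers z) :
    ∃ t ∈ A, ∀ p ∈ P, t * p * t⁻¹ = p⁻¹ := by
  obtain ⟨ρ, E, c⟩ := h.exists_co hz hb z1 bz
  obtain ⟨t, ht⟩ := c.onto (-1) (by decide)
  refine ⟨t, t.2, fun p hp => ?_⟩
  obtain ⟨v, rfl⟩ := c.surj p hp
  rw [c.act, ht, neg_mulVec, one_mulVec, c.neg]

theorem Side.eq_one (h : Side A P) {t p : G} (ht : ∀ p ∈ P, t * p * t⁻¹ = p⁻¹) (hp : p ∈ P) (c : Commute t p) :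
    p = 1 := by
  have h1 := ht p hp
  rw [c.eq, mul_inv_cancel_right] at h1
  have h2 := ea_pow h.ea hp
  rwa [pow_three, mul_eq_one_iff_eq_inv.2 h1, mul_one] at h2

theorem Side.sq (h : Side A P) {t : G} (htA : t ∈ A) (ht : ∀ p ∈ P, t * p * t⁻¹ = p⁻¹) : t * t = 1 :=
  h.eq_one ht (h.cent _ (mul_mem htA htA) fun p hp => by
    rw [show t * t * p * (t * t)⁻¹ = t * (t * p * t⁻¹) * t⁻¹ by group, ht p hp, ht _ (inv_mem hp), inv_inv])
    ((Commute.refl t).mul_right (Commute.refl t))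

theorem Side.comm_mem (h : Side A P) {t g : G} (htA : t ∈ A) (ht : ∀ p ∈ P, t * p * t⁻¹ = p⁻¹) (hg : g ∈ A) :
    t * g * t⁻¹ * g⁻¹ ∈ P :=
  h.cent _ (mul_mem (mul_mem (mul_mem htA hg) (inv_mem htA)) (inv_mem hg)) fun p hp => by
    have h1 : ∀ p ∈ P, t⁻¹ * p * t = p⁻¹ := fun p hp => by
      rw [← ht p hp, inv_eq_of_mul_eq_one_right (h.sq htA ht)]
    have h2 := inv_conj_mem_of_mem_normalizer (h.norm hg) hp
    calc _ = t * (g * (t⁻¹ * (g⁻¹ * p * g) * t) * g⁻¹) * t⁻¹ := by group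
      _ = p := by rw [h1 _ h2, show g * (g⁻¹ * p * g)⁻¹ * g⁻¹ = p⁻¹ by group, ht _ (inv_mem hp), inv_inv]

/-- the fifth generator -/
structure Ext (A : Subgroup G) (a b t u r : G) : Prop where
  rr : r * r = 1
  rt : r * t * r * t = 1
  ru : r * u * r * t * u = 1
  rb : r * b * r * (a * b * a⁻¹ * b⁻¹) = 1
  aru : (a * (r * u)) ^ 3 * t = 1
  mem : r ∈ A
  gen : ∀ K : Subgroup G, a ∈ K → b ∈ K → t ∈ K → u ∈ K → r ∈ K → A ≤ K
  cent : ∀ c ∈ A, Commute c b → Commute c u → c ∈ zpowers b ∨ c * u ∈ zpowers b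

theorem gl_cover : ∀ p q r s : ZMod 3, p * s - q * r ≠ 0 → ∃ i j : Fin 3, ∃ k l m : Fin 2,
    !![p, q; r, s] = (!![1, 1; 0, 1] : M2) ^ i.1 * (-1) ^ k.1 * !![2, 0; 0, 1] ^ l.1 * !![0, 2; 2, 0] ^ m.1 *
      !![1, 1; 0, 1] ^ j.1 := by decide +kernel

theorem gl_cent : ∀ p q r s : ZMod 3, p * s - q * r ≠ 0 → !![p, q; r, s] *ᵥ ![0, 1] = ![0, 1] →
    !![p, q; r, s] * !![2, 0; 0, 1] = !![2, 0; 0, 1] * !![p, q; r, s] →
    !![p, q; r, s] = (1 : M2) ∨ !![p, q; r, s] * !![2, 0; 0, 1] = (1 : M2) := by decide +kernel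

theorem Side.exists_ext (h : Side A P) {a t u : G} (ha : a ∈ A) (htA : t ∈ A) (hu : u ∈ A) (hb : b ∈ P)
    (hz : z = a * b * a⁻¹ * b⁻¹) (z1 : z ≠ 1) (bz : b ∉ zpowers z) (az : Commute a z) (ht : ∀ p ∈ P, t * p * t⁻¹ = p⁻¹)
    (ta : Commute t a) (tu : Commute t u) (uz : u * z * u⁻¹ = z⁻¹) (ub : Commute u b) : ∃ r, Ext A a b t u r := by
  have hzP : z ∈ P := hz ▸ mul_mem (conj_mem_of_mem_normalizer (h.norm ha) hb) (inv_mem hb)
  obtain ⟨ρ, E, c⟩ := h.exists_co hzP hb z1 bz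
  have n0 : E ![2, 0] = z⁻¹ := c.e0 ▸ (c.neg _).symm ▸ congrArg E (by decide)
  have n1 : E ![0, 2] = b⁻¹ := c.e1 ▸ (c.neg _).symm ▸ congrArg E (by decide)
  have ρa : ρ ⟨a, ha⟩ = !![1, 1; 0, 1] := c.eq ![1, 0] (![1, 0] + ![0, 1])
    (by rw [c.e0, az.eq, mul_inv_cancel_right]) (by rw [c.add, c.e0, c.e1, hz, inv_mul_cancel_right])
  have ρt : ρ ⟨t, htA⟩ = -1 := c.eq _ _ (n0.symm ▸ ht z hzP) (n1.symm ▸ ht b hb)
  have ρu : ρ ⟨u, hu⟩ = !![2, 0; 0, 1] := c.eq _ ![0, 1] (n0.symm ▸ uz) (by rw [c.e1, ub.eq, mul_inv_cancel_right])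
  obtain ⟨r, hr, tr⟩ : ∃ r : A, ρ r = !![0, 2; 2, 0] ∧ Commute t r := by
    obtain ⟨r, hr⟩ := c.onto !![0, 2; 2, 0] (by decide)
    have hp := h.comm_mem htA ht r.2
    set p := t * r * t⁻¹ * (r : G)⁻¹ with e
    obtain ⟨v, hv⟩ := c.surj p hp
    refine ⟨⟨p⁻¹, h.le (inv_mem hp)⟩ * r, ?_, ?_⟩
    · rw [map_mul, hr, c.eq (M := 1) ![1, 0] ![0, 1], one_mul]
      · rw [c.e0, ea_mul_comm h.ea (inv_mem hp) hzP, mul_inv_cancel_right]
      · rw [c.e1, ea_mul_comm h.ea (inv_mem hp) hb, mul_inv_cancel_right]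
    · have h3 : p * p = p⁻¹ := eq_inv_of_mul_eq_one_left (by rw [← ea_pow h.ea hp, pow_three'])
      change t * (p⁻¹ * r) = p⁻¹ * r * t
      calc t * (p⁻¹ * r) = (t * p⁻¹ * t⁻¹) * p * r * t := by rw [e]; group
        _ = _ := by rw [ht _ (inv_mem hp), inv_inv, h3]
  have inj : ∀ g : A, Commute t g → ρ g = 1 → (g : G) = 1 := fun g h1 h2 => h.eq_one ht (c.ker g h2) h1
  have tt := Commute.refl t
  have rr : (r : G) * r = 1 := inj (r * r) (tr.mul_right tr) (by rw [map_mul, hr]; decide)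
  have hdet : ∀ g, (ρ g).det ≠ 0 := fun g e => by
    have := congrArg det (show ρ g * ρ g⁻¹ = 1 by rw [← map_mul, mul_inv_cancel, map_one])
    rw [det_mul, e, zero_mul, det_one] at this
    exact zero_ne_one this
  refine ⟨r, rr, inj (r * ⟨t, htA⟩ * r * ⟨t, htA⟩) (((tr.mul_right tt).mul_right tr).mul_right tt) ?_,
    inj (r * ⟨u, hu⟩ * r * ⟨t, htA⟩ * ⟨u, hu⟩) ((((tr.mul_right tu).mul_right tr).mul_right tt).mul_right tu) ?_, ?_,
    inj ((⟨a, ha⟩ * (r * ⟨u, hu⟩)) ^ 3 * ⟨t, htA⟩) (((ta.mul_right (tr.mul_right tu)).pow_right 3).mul_right tt) ?_,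
    r.2, fun K h1 h2 h3 h4 h5 g hg => ?_, fun g hg h1 h2 => ?_⟩
  · simp only [map_mul, hr, ρt]; decide
  · simp only [map_mul, hr, ρt, ρu]; decide
  · have := c.act r ![0, 1]
    rw [c.e1, hr, show (!![0, 2; 2, 0] : M2) *ᵥ ![0, 1] = ![2, 0] by decide, n0, inv_eq_of_mul_eq_one_right rr] at this
    rw [this, ← hz, inv_mul_cancel]
  · simp only [map_mul, map_pow, hr, ρt, ρu, ρa]; decide
  · have hP := c.le (hz ▸ mul_mem (mul_mem (mul_mem h1 h2) (inv_mem h1)) (inv_mem h2)) h2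
    obtain ⟨i, j, k, l, m, e⟩ := gl_cover _ _ _ _ (det_fin_two (ρ ⟨g, hg⟩) ▸ hdet ⟨g, hg⟩)
    rw [← eta_fin_two, ← ρa, ← ρt, ← ρu, ← hr] at e
    simp only [← map_pow, ← map_mul] at e
    have := hP (c.ker (⟨g, hg⟩ * _⁻¹) (by rw [map_mul, e, ← map_mul, mul_inv_cancel, map_one]))
    exact (K.mul_mem_cancel_right (inv_mem (mul_mem (mul_mem (mul_mem (mul_mem (pow_mem h1 _) (pow_mem h3 _))
      (pow_mem h4 _)) (pow_mem h5 _)) (pow_mem h1 _)))).1 this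
  · have k : ∀ x : A, ρ x = 1 → Commute (x : G) u → (x : G) ∈ zpowers b := fun x h1 h2 => by
      obtain ⟨v, hv⟩ := c.surj _ (c.ker x h1)
      have h3 := c.act ⟨u, hu⟩ v
      rw [ρu, hv, ← h2.eq, mul_inv_cancel_right, ← hv] at h3
      have k : ∀ v : Fin 2 → ZMod 3, v = !![2, 0; 0, 1] *ᵥ v → v = 0 ∨ v = ![0, 1] ∨ v = ![0, 2] := by decide
      rw [← hv]
      rcases k v (c.inj h3) with rfl | rfl | rfl
      · exact c.zero ▸ one_mem _
      · exact c.e1 ▸ mem_zpowers _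
      · exact n1 ▸ inv_mem (mem_zpowers _)
    have h3 := c.act ⟨g, hg⟩ ![0, 1]
    rw [c.e1, h1.eq, mul_inv_cancel_right, ← c.e1] at h3
    have h4 := congrArg ρ (show (⟨g, hg⟩ * ⟨u, hu⟩ : A) = ⟨u, hu⟩ * ⟨g, hg⟩ from Subtype.ext h2)
    rw [map_mul, map_mul, ρu, eta_fin_two (ρ _)] at h4
    have h5 := gl_cent _ _ _ _ (det_fin_two (ρ ⟨g, hg⟩) ▸ hdet ⟨g, hg⟩) (eta_fin_two (ρ _) ▸ (c.inj h3).symm) h4
    rw [← eta_fin_two, ← ρu, ← map_mul] at h5
    exact h5.imp (fun e => k _ e h2) fun e => k _ e (h2.mul_left (Commute.refl u))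

end CL.Agl
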