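/-
Two subgroups `GL₂(3)` with common centre `t` and common Borel subgroup, when `C(t)/⟨t⟩` has a
self-centralizing element of order three: an extra relation (Feit-Thompson).
-/
import Cfsg.Agent.S0111
import Cfsg.Agent.Perm.Exc3d

set_option autoImplicit false
open Cfsg Subgroup CL.Perm

namespace CL.Agl

variable {G : Type*} [Group G] [Finite G] {t x q v q' v' : G}

theorem d8 (x3 : x ^ 3 = 1) (x1 : x ≠ 1) (q1 : q ≠ 1) (qq : q * q = 1) (xq : (x * q) ^ 3 = 1) (vv : v * v = 1)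
    (vx : v * x * v = x⁻¹) (vq : v * q * v = q) :
    8 ∣ Nat.card G ∧ (¬ 16 ∣ Nat.card G → (∀ M : Subgroup G, M.Normal → M.index ≠ 2) → ∃ g, g * v * g⁻¹ = q) := by
  classical
  have vi := inv_eq_of_mul_eq_one_right vv
  have qi := inv_eq_of_mul_eq_one_right qq
  have h1 := cub_norm x3 xq
  have h2 : (x * q * x⁻¹) * (x * q * x⁻¹) = 1 := by rw [conj_mul, qq, mul_one, mul_inv_cancel]
  have h3 : v * (x * q * x⁻¹) * v = x⁻¹ * q * x :=
    calc _ = (v * x * v) * (v⁻¹ * q * v) * (v * x * v)⁻¹ * (v * v) := by group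
      _ = _ := by rw [vi, vx, vq, vv, inv_inv, mul_one]
  set y := v * (x * q * x⁻¹) with hy
  have yy : y ^ 2 = q := by
    have h4 : q * (x * q * x⁻¹) = x⁻¹ * q * x := by
      rw [eq_inv_of_mul_eq_one_left h1, ← qi]; simp only [mul_inv_rev, inv_inv, qi, mul_assoc]
    rw [sq, hy, ← mul_assoc, h3, ← h4, mul_assoc q, h2, mul_one]
  have y4 : y ^ 4 = 1 := by rw [show 4 = 2 * 2 from rfl, pow_mul, yy, sq, qq]
  have oy : orderOf y = 4 := orderOf_eq_prime_pow (p := 2) (n := 1) (by rwa [pow_one, yy]) y4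
  have vy : v * y * v⁻¹ = y⁻¹ := by
    rw [hy, ← mul_assoc, vv, one_mul, mul_inv_rev v, inv_eq_of_mul_eq_one_right h2]
  have v1 : v ≠ 1 := fun e => x1 (by
    rw [e, one_mul, mul_one] at vx
    rwa [pow_three, mul_eq_one_iff_eq_inv.2 vx, mul_one] at x3)
  have ov : orderOf v = 2 := orderOf_eq_prime (by rw [sq, vv]) v1
  have hv : v ∉ zpowers y := fun ⟨k, e⟩ => q1 (by
    rw [← e, ← (Commute.zpow_right (Commute.refl y) k).eq, mul_inv_cancel_right] at vy
    rw [← yy, sq, mul_eq_one_iff_eq_inv.2 vy])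
  obtain ⟨S, hS⟩ := ((IsPGroup.of_card (n := 1) ((Nat.card_zpowers v).trans ov)).to_sup_of_normal_right'
    (IsPGroup.of_card (p := 2) (n := 2) ((Nat.card_zpowers y).trans oy))
    (zpowers_le.2 (mem_normalizer_fintype fun _ ⟨k, e⟩ => ⟨-k, by
      simp only [← e, ← conj_zpow, vy, inv_zpow']⟩))).exists_le_sylow
  have hyS := le_sup_right.trans hS
  have hvS : v ∈ (S : Subgroup G) := hS (mem_sup_left (mem_zpowers v))
  have hc := ((zpowers y).subgroupOf S).card_mul_index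
  rw [Nat.card_congr (subgroupOfEquivOfLe hyS).toEquiv, Nat.card_zpowers, oy] at hc
  obtain ⟨n, hn⟩ := (S.2.index ((zpowers y).subgroupOf S))
  have hd := (S : Subgroup G).card_subgroup_dvd_card
  obtain _ | n := n
  · exact absurd (relIndex_eq_one.1 hn hvS) hv
  rw [← hc, hn] at hd
  refine ⟨(Dvd.intro (2 ^ n) (by ring)).trans hd, fun h16 hM => ?_⟩
  obtain _ | n := n
  · obtain ⟨M, h5, h6, -⟩ | ⟨g, hg⟩ := Cfsg.Agent.S0111.result S _ hyS hn v ov hvS hv
    · exact absurd h6 (hM M h5)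
    have h7 : orderOf (g * v * g⁻¹) = 2 := (MulAut.conj g).orderOf_eq v ▸ ov
    obtain ⟨k, hk, e⟩ := Finset.mem_image.1 (mem_zpowers_iff_mem_range_orderOf.1 hg)
    rw [oy, Finset.mem_range] at hk
    rw [← e, orderOf_pow, oy] at h7
    refine ⟨g, e.symm.trans ?_⟩
    interval_cases k
    exacts [absurd h7 (by decide), absurd h7 (by decide), yy, absurd h7 (by decide)]
  · exact absurd ((Dvd.intro (2 ^ n) (by ring)).trans hd) h16

theorem ft3_mem (hx : SC3 x) {K : Subgroup G} [K.Normal] (hxK : x ∉ K)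
    (h : (∀ g : G, ∃ k ∈ K, k⁻¹ * g ∈ normalizer (zpowers x : Set G)) ∨
      ((∀ N : Subgroup G, N.Normal → K ≤ N → N = K ∨ N = ⊤) ∧ Sec3 x K 2 ∧ (K.index = 60 ∨ (K.index = 168 ∧ Sec3 x K 7))))
    (qq : q * q = 1) (xq : (x * q) ^ 3 = 1) (vv : v * v = 1) (vx : v * x * v = x⁻¹) (vq : v * q * v = q) :
    q ∈ K ∨ ∃ g, g * v * g⁻¹ = q := by
  refine or_iff_not_imp_left.2 fun hq => ?_
  let π := QuotientGroup.mk' K
  have hπ : ∀ g, π g = 1 ↔ g ∈ K := fun g => QuotientGroup.eq_one_iff g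
  have x3 : π x ^ 3 = 1 := by rw [← map_pow, hx.cube, map_one]
  have qq' : π q * π q = 1 := by rw [← map_mul, qq, map_one]
  have xq' : (π x * π q) ^ 3 = 1 := by rw [← map_mul, ← map_pow, xq, map_one]
  obtain h | ⟨h1, h2, h3 | ⟨h3, h4⟩⟩ := h
  · obtain ⟨k, hk, h⟩ := h q
    have h5 := ((mem_normalizer_zpowers_three hx.order).1 h).imp (congrArg π) (congrArg π)
    simp only [map_mul, map_inv, (hπ k).2 hk, inv_one, one_mul] at h5
    rcases h5 with e | e
    · rw [(show Commute (π q) (π x) from mul_inv_eq_iff_eq_mul.1 e).symm.mul_pow, x3, one_mul, pow_three, qq', mul_one] at xq'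
      exact absurd ((hπ q).1 xq') hq
    · rw [inv_eq_of_mul_eq_one_right qq'] at e
      have h6 : π x * π q * (π x * π q) = 1 := by rw [mul_assoc, ← mul_assoc (π q), e, mul_inv_cancel]
      rw [pow_three, h6, mul_one] at xq'
      rw [eq_inv_of_mul_eq_one_left xq', inv_eq_of_mul_eq_one_right qq', pow_three, qq', mul_one] at x3
      exact absurd ((hπ q).1 x3) hq
  · have := (d8 (v := π v) x3 (mt (hπ x).1 hxK) (mt (hπ q).1 hq) qq' xq' (by rw [← map_mul, vv, map_one])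
      (by rw [← map_mul, ← map_mul, vx, map_inv]) (by rw [← map_mul, ← map_mul, vq])).1
    rw [show Nat.card (G ⧸ K) = 60 from h3] at this
    exact absurd this (by decide)
  · obtain rfl : K = ⊥ := eq_bot_iff.2 fun a ha => by
      have e2 := (higman3 hx h1 h2).2 a ha
      have e7 := (higman3 hx h1 h4).2 a ha
      rwa [show 7 = 2 * 3 + 1 from rfl, pow_succ, pow_mul, e2, one_pow, one_mul] at e7
    rw [index_bot] at h3
    refine (d8 hx.cube hx.ne_one hq qq xq vv vx vq).2 (by rw [h3]; decide) fun M hM e => ?_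
    rcases h1 M hM bot_le with rfl | rfl
    · rw [index_bot, h3] at e; exact absurd e (by decide)
    · rw [index_top] at e; exact absurd e (by decide)

/-- generators of a copy of `GL₂(3)` with centre `t` -/
structure Cfg {G : Type*} [Group G] (t x q v : G) : Prop where
  tx : Commute t x
  tv : Commute t v
  qq : q * q = t
  xq : (x * q) ^ 3 = t
  vv : v * v = 1
  vx : v * x * v = x⁻¹
  vq : v * q * v = q⁻¹

theorem key0 (ht : ∀ g, Commute t g) (tt : t * t = 1) (t1 : t ≠ 1) (x3 : x ^ 3 = 1) (x1 : x ≠ 1)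
    (hc : ∀ c, Commute c x → c ∈ zpowers x ∨ c * t ∈ zpowers x) (c1 : Cfg t x q v) (c2 : Cfg t x q' v') :
    (x * q * q') ^ 3 = 1 ∨ (x * q * q') ^ 3 = t := by
  classical
  have ot : orderOf t = 2 := orderOf_eq_prime (by rw [sq, tt]) t1
  have : (zpowers t).Normal := ⟨fun _ ⟨k, e⟩ g => ⟨k, by rw [← e, ← ((ht g).zpow_left k).eq, mul_inv_cancel_right]⟩⟩
  let π := QuotientGroup.mk' (zpowers t)
  have hπ : ∀ g, π g = 1 ↔ g = 1 ∨ g = t := fun g => by
    refine (QuotientGroup.eq_one_iff g).trans ⟨fun hg => ?_, fun e => e.elim (· ▸ one_mem _) (· ▸ mem_zpowers _)⟩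
    obtain ⟨k, hk, e⟩ := Finset.mem_image.1 (mem_zpowers_iff_mem_range_orderOf.1 hg)
    rw [ot, Finset.mem_range] at hk
    interval_cases k
    exacts [.inl (e.symm.trans (pow_zero t)), .inr (e.symm.trans (pow_one t))]
  have πt := (hπ t).2 (.inr rfl)
  have t3 : t ^ 3 = t := by rw [pow_three, tt, mul_one]
  have : Fact (Nat.Prime 3) := ⟨Nat.prime_three⟩
  have hx : SC3 (π x) := ⟨orderOf_eq_prime (by rw [← map_pow, x3, map_one]) fun e =>
    ((hπ x).1 e).elim x1 fun e => t1 (by rw [← t3, ← e, x3]), fun c h => by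
      obtain ⟨c, rfl⟩ := QuotientGroup.mk'_surjective _ c
      have h1 : Commute c x := by
        refine ((hπ (c * x * c⁻¹ * x⁻¹)).1 (by
          rw [map_mul, map_mul, map_mul, ← h.eq, map_inv, map_inv, mul_inv_cancel_right, mul_inv_cancel])).elim
          (fun e => commutatorElement_eq_one_iff_commute.1 e) fun e => absurd ?_ t1
        rw [← t3, ← mul_one (t ^ 3), ← x3, ← (ht x).mul_pow, ← e, inv_mul_cancel_right, conj_pow, x3, mul_one, mul_inv_cancel]
      rcases hc c h1 with ⟨k, e⟩ | ⟨k, e⟩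
      · exact ⟨k, by rw [← e]; exact (map_zpow π x k).symm⟩
      · exact ⟨k, ((map_zpow π x k).symm.trans (congrArg π e)).trans (by rw [map_mul, πt, mul_one])⟩⟩
  obtain ⟨K, _, hxK, h⟩ := ft3 hx
  have k : ∀ {q v}, Cfg t x q v → π q ∈ K := fun {q v} c => by
    have qq : π q * π q = 1 := by rw [← map_mul, c.qq, πt]
    refine (ft3_mem (v := π v) hx hxK h qq (by rw [← map_mul, ← map_pow, c.xq, πt]) (by rw [← map_mul, c.vv, map_one])
      (by rw [← map_mul, ← map_mul, c.vx, map_inv])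
      (by rw [← map_mul, ← map_mul, c.vq, map_inv, inv_eq_of_mul_eq_one_right qq])).resolve_right fun ⟨g, e⟩ => t1 ?_
    obtain ⟨g, rfl⟩ := QuotientGroup.mk'_surjective _ g
    have h1 : (g * v * g⁻¹) * (g * v * g⁻¹) = 1 := by rw [conj_mul, c.vv, mul_one, mul_inv_cancel]
    rcases (hπ (g * v * g⁻¹ * q⁻¹)).1 (by rw [map_mul, map_mul, map_mul, map_inv, map_inv, e, mul_inv_cancel]) with e | e
    · rwa [mul_inv_eq_one.1 e, c.qq] at h1
    · rwa [mul_inv_eq_iff_eq_mul.1 e, (ht q).symm.mul_mul_mul_comm, tt, one_mul, c.qq] at h1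
  refine (hπ _).1 ?_
  rw [map_pow, mul_assoc, map_mul, map_mul]
  exact (Inv3.cub ⟨normalizer_eq_top K ▸ mem_top _, hxK⟩ hx).cube _ (mul_mem (k c1) (k c2))

theorem key (tt : t * t = 1) (t1 : t ≠ 1) (x3 : x ^ 3 = 1) (x1 : x ≠ 1)
    (hc : ∀ c, Commute c x → Commute c t → c ∈ zpowers x ∨ c * t ∈ zpowers x) (c1 : Cfg t x q v) (c2 : Cfg t x q' v') :
    (x * q * q') ^ 3 = 1 ∨ (x * q * q') ^ 3 = t := by
  let m : ∀ {g}, Commute t g → centralizer ({t} : Set G) := fun {g} h => ⟨g, mem_centralizer_singleton_iff.2 h.symm.eq⟩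
  have tq : ∀ {q v}, Cfg t x q v → Commute t q := fun c => c.qq ▸ (Commute.refl _).mul_left (Commute.refl _)
  have k : ∀ {q v} (c : Cfg t x q v), Cfg (m (Commute.refl t)) (m c1.tx) (m (tq c)) (m c.tv) := fun c =>
    ⟨Subtype.ext c.tx, Subtype.ext c.tv, Subtype.ext c.qq, Subtype.ext c.xq, Subtype.ext c.vv, Subtype.ext c.vx,
      Subtype.ext c.vq⟩
  exact (key0 (fun g => Subtype.ext (mem_centralizer_singleton_iff.1 g.2).symm) (Subtype.ext tt)
    (fun e => t1 (congrArg Subtype.val e)) (Subtype.ext x3) (fun e => x1 (congrArg Subtype.val e))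
    (fun c h => (hc c.1 (show c.1 * x = x * c.1 from congrArg Subtype.val h.eq) (mem_centralizer_singleton_iff.1 c.2)).imp
      (fun ⟨k, e⟩ => ⟨k, Subtype.ext e⟩) fun ⟨k, e⟩ => ⟨k, Subtype.ext e⟩) (k c1) (k c2)).imp
    (congrArg Subtype.val) (congrArg Subtype.val)

end CL.Agl
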