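/-
Completions of the amalgam `(3² : GL₂(3), 3² : GL₂(3))`: `M₁₂` and `L₃(3)` by coset enumeration.
-/
import Cfsg.Agent.Rec.TCAgl23
import Cfsg.Agent.Rec.TCAglL33
import Cfsg.Agent.Rec.TCAglM12
import Cfsg.Agent.Spor.AmgTools
import Cfsg.Agent.Cls.SLnCard
import Cfsg.Agent.S3362
import Cfsg.Agent.Known.MathieuIso
import Cfsg.Agent.Spor.M12Unique
import Cfsg.Agent.Rec.Agl1
import Cfsg.Agent.Rec.Agl2

set_option autoImplicit false
set_option maxRecDepth 100000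
open Cfsg Subgroup CL.TC CL.Amg
open scoped MatrixGroups

namespace CL.Agl

variable {G : Type*} [Group G]

/-- A group generated by `g` is isomorphic to the simple group `M`, given an upper bound for the graph. -/
theorem equiv_of_bound {Γ : Type*} [Group Γ] [Nontrivial G] (g : ℕ → G) (y : ℕ → Γ) (C : ℕ) (M : Subgroup Γ)
    (hM : M ≤ gen y C) (hs : IsSimpleGroup M) (hg : gen g C = ⊤)
    (hb : Finite (gen (fun i => (g i, y i)) C) ∧ Nat.card (gen (fun i => (g i, y i)) C) ≤ Nat.card M) :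
    Nonempty (G ≃* M) := by
  let K := gen (fun i => (g i, y i)) C
  let π : K →* Γ := (MonoidHom.snd G Γ).comp K.subtype
  have := hb.1
  have := Finite.of_surjective _ π.rangeRestrict_surjective
  obtain rfl : M = π.range := eq_of_le_of_card_ge (hM.trans (gen_le fun i hi => ⟨⟨_, mem_gen _ hi⟩, rfl⟩))
    ((Nat.card_le_card_of_surjective _ π.rangeRestrict_surjective).trans hb.2)
  let e := MulEquiv.ofBijective _ (π.rangeRestrict_surjective.bijective_of_nat_card_le hb.2)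
  let f := ((MonoidHom.fst G Γ).comp K.subtype).comp e.symm.toMonoidHom
  have hf : f.range = ⊤ := eq_top_iff.2 (hg ▸ gen_le fun i hi =>
    ⟨e ⟨_, mem_gen _ hi⟩, congrArg (fun k : K => k.1.1) (e.symm_apply_apply _)⟩)
  refine ⟨(MulEquiv.ofBijective f ⟨(MonoidHom.ker_eq_bot_iff f).1 ((hs.eq_bot_or_eq_top_of_normal _ f.normal_ker).resolve_right
    fun h => ?_), MonoidHom.range_eq_top.1 hf⟩).symm⟩
  rw [MonoidHom.range_eq_map, ← h, (Subgroup.map_eq_bot_iff f.ker).2 le_rfl] at hf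
  exact bot_ne_top hf

theorem bound {c : Cert} {R : List (List ℕ)} (hv : c.Valid (fun i => AglM12.invL.getD i i) R AglM12.subs 8)
    (hR : ∀ r ∈ Agl23.rels, r ∈ R) {g : ℕ → G} (hi : ∀ i, g (AglM12.invL.getD i i) = (g i)⁻¹) (hr : ∀ r ∈ R, ev g r = 1) :
    Finite (gen g 8) ∧ Nat.card (gen g 8) ≤ c.N * 432 := by
  obtain ⟨el, h⟩ := exists_lab Agl23.valid g (fun i => by
    rw [← hi]; rcases i with _ | _ | _ | _ | _ | _ | _ | _ | i <;> rfl) fun r h => hr r (hR r h)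
  exact card_le_of_relIndex (gen_le fun i hi => mem_gen g (by omega)) h.card_le
    (hv.relIndex_le' g hi hr (fun u hu => ev_mem_gen g (by revert u; decide)) le_rfl)

theorem equiv_of_cert {Γ : Type*} [Group Γ] [Nontrivial G] {c : Cert} {R : List (List ℕ)}
    (hv : c.Valid (fun i => AglM12.invL.getD i i) R AglM12.subs 8) (hR : ∀ r ∈ Agl23.rels, r ∈ R) {g : ℕ → G} {y : ℕ → Γ}
    (hi : ∀ i, g (AglM12.invL.getD i i) = (g i)⁻¹) (hr : ∀ r ∈ R, ev g r = 1) (hg : gen g 8 = ⊤)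
    (hi' : ∀ i, y (AglM12.invL.getD i i) = (y i)⁻¹) (hr' : ∀ r ∈ R, ev y r = 1) (M : Subgroup Γ) (hM : M ≤ gen y 8)
    (hs : IsSimpleGroup M) (hc : Nat.card M = c.N * 432) : Nonempty (G ≃* M) :=
  equiv_of_bound g y 8 M hM hs hg (hc ▸ bound hv hR (fun i => Prod.ext (hi i) (hi' i)) fun r h => by
    rw [ev_prod, hr r h, hr' r h]; rfl)

/-- the list of letters -/
def lt (a b t u r s : G) (i : ℕ) : G := [a, a⁻¹, b, b⁻¹, t, u, r, s].getD i 1

theorem lt_inv {a b t u r s : G} (tt : t * t = 1) (uu : u * u = 1) (rr : r * r = 1) (ss : s * s = 1) (i : ℕ) :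
    lt a b t u r s (AglM12.invL.getD i i) = (lt a b t u r s i)⁻¹ := by
  rcases i with _ | _ | _ | _ | _ | _ | _ | _ | i
  exacts [rfl, (inv_inv _).symm, rfl, (inv_inv _).symm, eq_inv_of_mul_eq_one_left tt, eq_inv_of_mul_eq_one_left uu,
    eq_inv_of_mul_eq_one_left rr, eq_inv_of_mul_eq_one_left ss, inv_one.symm]

section M12
open Cfsg.Agent.S3362

/-- the generators in `M₁₂` -/
def yM : ℕ → Equiv.Perm (Fin 12) := lt ⟨tp 0x4a785b963021, tp 0x6a58947b3102, by decide +kernel, by decide +kernel⟩ ps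
  ⟨tp 0x786ab9453210, tp 0x786ab9453210, by decide +kernel, by decide +kernel⟩ pz
  ⟨tp 0xb465798a3120, tp 0xb465798a3120, by decide +kernel, by decide +kernel⟩
  ⟨tp 0xb27196540a83, tp 0xb27196540a83, by decide +kernel, by decide +kernel⟩

theorem isoM12 [Nontrivial G] {g : ℕ → G} (hi : ∀ i, g (AglM12.invL.getD i i) = (g i)⁻¹)
    (hr : ∀ r ∈ AglM12.rels, ev g r = 1) (hg : gen g 8 = ⊤) : Spor.IsoM12 G := by
  have h : IsM12 (CL.Perm.wittChain qq GG ss 5) :=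
    CL.Spor.SharpTrans.isM12 (Ω := Fin 12) ⟨witt.isMultiplyPretransitive, stab_y⟩ (by simp)
  have k : ∀ w x, ltB 8 w = true → (∀ i, x i = ev yM w i) → x ∈ gen yM 8 := fun w x h e =>
    (Equiv.ext e : x = _) ▸ ev_mem_gen yM h
  obtain ⟨e⟩ := equiv_of_cert AglM12.valid (by decide) hi hr hg (y := yM)
    (lt_inv (Equiv.ext (by decide +kernel)) (Equiv.ext (by decide +kernel)) (Equiv.ext (by decide +kernel))
      (Equiv.ext (by decide +kernel)))
    (fun r h => Equiv.ext ((by decide +kernel : ∀ r ∈ AglM12.rels, ∀ i, ev yM r i = i) r h)) _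
    (by
      rw [chain5, closure_le]
      rintro x (rfl | rfl | rfl | rfl | rfl | rfl | rfl | rfl)
      exacts [k [2] _ rfl (by decide +kernel), k [0, 2, 1] _ rfl (by decide +kernel), k [0, 6, 0, 6] _ rfl (by decide +kernel),
        k [0, 6, 0, 5] _ rfl (by decide +kernel), k [6, 5] _ rfl (by decide +kernel),
        k [6, 5, 7, 6, 7, 6, 7] _ rfl (by decide +kernel), k [1, 4, 6, 0] _ rfl (by decide +kernel),
        k [5] _ rfl (by decide +kernel)]) h.1 h.2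
  obtain ⟨f⟩ := CL.Spor.nonempty_mulEquiv_of_isM12 h ⟨CL.Spor.M12_simple, CL.Spor.card_M12⟩
  exact ⟨e.trans f⟩

end M12

/-- the generators in `SL₃(3)` -/
def yL : ℕ → SL(3, ZMod 3) := lt ⟨!![1, 1, 0; 0, 1, 0; 0, 0, 1], by decide⟩ ⟨!![1, 0, 0; 0, 1, 1; 0, 0, 1], by decide⟩
  ⟨!![2, 0, 0; 0, 2, 0; 0, 0, 1], by decide⟩ ⟨!![1, 0, 0; 0, 2, 0; 0, 0, 2], by decide⟩
  ⟨!![0, 1, 0; 1, 0, 0; 0, 0, 2], by decide⟩ ⟨!![2, 0, 0; 0, 0, 2; 0, 2, 0], by decide⟩

theorem isoL33 [Nontrivial G] {g : ℕ → G} (hi : ∀ i, g (AglM12.invL.getD i i) = (g i)⁻¹)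
    (hr : ∀ r ∈ AglL33.rels, ev g r = 1) (hg : gen g 8 = ⊤) :
    Nonempty (G ≃* Matrix.ProjectiveSpecialLinearGroup (Fin 3) (ZMod 3)) := by
  have hc : center SL(3, ZMod 3) = ⊥ := by
    rw [← card_eq_one, CL.SLn.card_center_SL]
    simp
  let f : (⊤ : Subgroup SL(3, ZMod 3)) ≃* Matrix.ProjectiveSpecialLinearGroup (Fin 3) (ZMod 3) :=
    topEquiv.trans ((QuotientGroup.quotientMulEquivOfEq hc).trans QuotientGroup.quotientBot).symm
  have := CL.SLn.isSimpleGroup_PSL (ι := Fin 3) (F := ZMod 3) (.inl (by simp))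
  have k : ∀ (i j : Fin 3) (h : i ≠ j) (c : ZMod 3), ∃ w ∈ [[], [0], [2], [6, 0, 6], [6, 2, 6], [7, 0, 7], [7, 2, 7], [6, 7, 2, 7, 6],
      [1], [3], [6, 1, 6], [6, 3, 6], [7, 1, 7], [7, 3, 7], [6, 7, 3, 7, 6]],
      ltB 8 w = true ∧ Matrix.SpecialLinearGroup.transvection h c = ev yL w := by decide +kernel
  obtain ⟨e⟩ := equiv_of_cert AglL33.valid (by decide) hi hr hg (y := yL)
    (lt_inv (by decide +kernel) (by decide +kernel) (by decide +kernel) (by decide +kernel)) (by decide +kernel) ⊤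
    (CL.SLn.eq_top_of_transvection_mem _ fun i j h c => by
      obtain ⟨w, -, h1, h2⟩ := k i j h c
      exact h2 ▸ ev_mem_gen yL h1).ge f.isSimpleGroup (by rw [card_top, CL.SLn.card_SL_three]; simp [AglL33.cert_N])
  exact ⟨e.trans f⟩

theorem Cfg.inv {t x q v : G} (c : Cfg t x⁻¹ q v) (tt : t * t = 1) : Cfg t x q⁻¹ v := by
  have vi := inv_eq_of_mul_eq_one_right c.vv
  have h1 : v * x⁻¹ * v⁻¹ = x := by rw [vi, c.vx, inv_inv]
  have h2 : v * q * v⁻¹ = q⁻¹ := by rw [vi, c.vq]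
  refine ⟨Commute.inv_right_iff.1 c.tx, c.tv, by rw [← mul_inv_rev, c.qq, inv_eq_of_mul_eq_one_right tt], ?_, c.vv, ?_, ?_⟩
  · rw [← h1, ← h2, conj_mul, conj_pow, c.xq, ← c.tv.eq, mul_inv_cancel_right]
  · have := congrArg (·⁻¹) h1
    simpa only [mul_inv_rev, inv_inv, vi, ← mul_assoc] using this
  · have := congrArg (·⁻¹) h2
    simpa only [mul_inv_rev, inv_inv, vi, ← mul_assoc] using this

theorem Ext.cfg {A : Subgroup G} {a b t u r : G} (h : Ext A a b t u r) (tt : t * t = 1) (uu : u * u = 1) (tu : Commute t u)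
    (ta : Commute t a) (ua : u * a * u⁻¹ = a⁻¹) : Cfg t a (r * u) u ∧ r * t * r⁻¹ = t ∧ r * u * r⁻¹ = t * u ∧
      r * b * r⁻¹ = b * a * b⁻¹ * a⁻¹ := by
  have ti := inv_eq_of_mul_eq_one_right tt
  have ui := inv_eq_of_mul_eq_one_right uu
  have ri := inv_eq_of_mul_eq_one_right h.rr
  have h1 : r * u * r = t * u := by
    rw [eq_inv_of_mul_eq_one_left ((mul_assoc (r * u * r) t u).symm.trans h.ru), mul_inv_rev, ti, ui, tu.eq]
  refine ⟨⟨ta, tu, ?_, (eq_inv_of_mul_eq_one_left h.aru).trans ti, uu, by rwa [ui] at ua, ?_⟩, ?_, ri.symm ▸ h1, ?_⟩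
  · rw [← mul_assoc, h1, mul_assoc, uu, mul_one]
  · rw [mul_inv_rev, ui, ri, mul_assoc, mul_assoc, uu, mul_one]
  · rw [ri, eq_inv_of_mul_eq_one_left h.rt, ti]
  · rw [ri, eq_inv_of_mul_eq_one_left h.rb]; group

/-- The recognition theorem in terms of generators. -/
theorem recog [Finite G] {A B : Subgroup G} (hAB : A ⊔ B = ⊤) {a b t u r s : G} (a3 : a ^ 3 = 1) (b3 : b ^ 3 = 1) (a1 : a ≠ 1)
    (az : Commute a (a * b * a⁻¹ * b⁻¹)) (bz : Commute b (a * b * a⁻¹ * b⁻¹)) (tt : t * t = 1) (t1 : t ≠ 1) (uu : u * u = 1)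
    (tu : Commute t u) (ta : Commute t a) (tb : t * b * t⁻¹ = b⁻¹) (ua : u * a * u⁻¹ = a⁻¹) (ub : Commute u b)
    (hr : Ext A a b t u r) (hs : Ext B b a u t s)
    (hN : ∀ c, Commute c (a * b * a⁻¹ * b⁻¹) → c ∈ B) :
    Spor.IsoM12 G ∨ Nonempty (G ≃* Matrix.ProjectiveSpecialLinearGroup (Fin 3) (ZMod 3)) := by
  have : Nontrivial G := ⟨a, 1, a1⟩
  have ti := inv_eq_of_mul_eq_one_right tt
  have ui := inv_eq_of_mul_eq_one_right uu
  have ri := inv_eq_of_mul_eq_one_right hr.rr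
  have si := inv_eq_of_mul_eq_one_right hs.rr
  have hi := lt_inv (a := a) (b := b) tt uu hr.rr hs.rr
  have hg : gen (lt a b t u r s) 8 = ⊤ := by
    have m := fun i (h : i < 8) => mem_gen (lt a b t u r s) h
    exact eq_top_iff.2 (hAB ▸ sup_le (hr.gen _ (m 0 (by decide)) (m 2 (by decide)) (m 4 (by decide)) (m 5 (by decide)) (m 6 (by decide)))
      (hs.gen _ (m 2 (by decide)) (m 0 (by decide)) (m 5 (by decide)) (m 4 (by decide)) (m 7 (by decide))))
  obtain ⟨c1, rt, ru, rb⟩ := hr.cfg tt uu tu ta ua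
  obtain ⟨c2, su, st, sa⟩ := hs.cfg uu tt tu.symm ub tb
  let φ := MulAut.conj (s * r)
  have hφ : ∀ x, φ x = s * (r * x * r⁻¹) * s⁻¹ := fun x => by change _ * x * _ = _; group
  have φb : φ b = a⁻¹ := by
    rw [hφ, rb, show b * a * b⁻¹ * a⁻¹ = (a * b * a⁻¹ * b⁻¹)⁻¹ by group, ← sa, ← conj_inv, ← mul_assoc, ← mul_assoc, hs.rr,
      one_mul, mul_assoc, si, hs.rr, mul_one]
  have φu : φ u = t := by rw [hφ, ru, ← conj_mul, st, su, ← tu.eq, mul_assoc, uu, mul_one]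
  have c3 : Cfg (φ u) (φ b) (φ (s * t)) (φ t) :=
    ⟨c2.tx.map φ, c2.tv.map φ, by rw [← map_mul, c2.qq], by rw [← map_mul, ← map_pow, c2.xq],
      by rw [← map_mul, c2.vv, map_one], by rw [← map_mul, ← map_mul, c2.vx, map_inv],
      by rw [← map_mul, ← map_mul, c2.vq, map_inv]⟩
  rw [φu, φb] at c3
  have e3 : (φ (s * t))⁻¹ = s * r * t * s * r * s := by
    simp only [hφ, mul_inv_rev, si, ri, ti, mul_assoc]
  have hk := key tt t1 a3 a1 (fun c h1 h2 => hs.cent c (by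
    have := hN (s * c * s⁻¹) (sa ▸ h1.map (MulAut.conj s))
    exact (B.mul_mem_cancel_left hs.mem).1 ((B.mul_mem_cancel_right (inv_mem hs.mem)).1 this)) h1 h2) c1 (c3.inv tt)
  have base : ∀ w ∈ AglM12.rels.take 17, ev (lt a b t u r s) w = 1 := by
    simp only [AglM12.rels, List.take_succ_cons, List.take_zero, List.forall_mem_cons, List.not_mem_nil, false_imp_iff,
      implies_true, and_true, ev_cons, ev_nil, lt, List.getD_cons_succ, List.getD_cons_zero, mul_one, ← mul_assoc]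
    refine ⟨pow_three' a ▸ a3, pow_three' b ▸ b3, ?_, ?_, ?_, ?_, ?_, ?_, ?_, hr.rt, hr.ru, ?_, ?_, hs.rt, hs.ru, ?_, ?_⟩
    · exact (commutatorElement_eq_one_iff_commute.2 az.symm).symm ▸ (by rw [commutatorElement_def]; group)
    · exact (commutatorElement_eq_one_iff_commute.2 bz.inv_right.symm).symm ▸ (by rw [commutatorElement_def]; group)
    · rw [mul_assoc t u t, ← tu.eq, ← mul_assoc, tt, one_mul, uu]
    · rw [ta.eq, mul_assoc a, tt, mul_one, mul_inv_cancel]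
    · rw [ti] at tb; rw [tb, inv_mul_cancel]
    · rw [ui] at ua; rw [ua, inv_mul_cancel]
    · rw [ub.eq, mul_assoc b, uu, mul_one, mul_inv_cancel]
    · exact hr.rb ▸ (by group)
    · exact hr.aru ▸ (by rw [pow_three]; group)
    · exact hs.rb ▸ (by group)
    · exact hs.aru ▸ (by rw [pow_three]; group)
  have e4 : ev (lt a b t u r s) [0, 6, 5, 7, 6, 4, 7, 6, 7, 0, 6, 5, 7, 6, 4, 7, 6, 7, 0, 6, 5, 7, 6, 4, 7, 6, 7] =
      (a * (r * u) * (φ (s * t))⁻¹) ^ 3 := by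
    simp only [e3, pow_three, ev_cons, ev_nil, lt, List.getD_cons_succ, List.getD_cons_zero, mul_one, mul_assoc]
  refine hk.imp (fun e => isoM12 hi (fun w hw => ?_) hg) fun e => isoL33 hi (fun w hw => ?_) hg
  · rw [← List.take_append_drop 17 AglM12.rels, List.mem_append] at hw
    exact hw.elim (base w) fun h => List.mem_singleton.1 h ▸ e4.trans e
  · rw [← List.take_append_drop 17 AglL33.rels, List.mem_append] at hw
    refine hw.elim (base w) fun h => ?_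
    obtain rfl := List.mem_singleton.1 h
    exact (ev_append _ _ [4]).trans ((congrArg₂ _ (e4.trans e) (mul_one t)).trans tt)

end CL.Agl
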